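import Cfsg.Agent.H974.Gs.RowFin
import Cfsg.Agent.H453.Gs.Main
import Cfsg.Agent.H915.Gs.RowTwo
import Cfsg.Agent.H172.Inv.OddIrr

/-!
# S4327, the row of `PSL_n(q)`
-/

set_option autoImplicit false

namespace Cfsg.Agent.H974.Gs

open Matrix Subgroup
open Cfsg.Agent.H915.Gs

/-- **`PSL_n(q)`, `n ≥ 3`** -/
theorem row_psl_three {F : Type*} [Field F] [Fintype F] {n : ℕ} (hn : 3 ≤ n)
    [IsSimpleGroup (Matrix.ProjectiveSpecialLinearGroup (Fin n) F)] :
    Row (Matrix.ProjectiveSpecialLinearGroup (Fin n) F) :=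
  row_psl_ge hn (fun x hx => Cfsg.Agent.H453.Gs.nonlin hn x hx)
    (Cfsg.Agent.H172.Inv.not_comm_psl (by rw [Fintype.card_fin]; exact hn))

universe u

/-- **all `PSL_n(q)`**: the field `psl` of `H260.GS.Rows` -/
theorem psl_row (L : Type u) [Group L] [Finite L] [IsSimpleGroup L] (hL : Cfsg.IsPSL L) : Row L := by
  obtain ⟨F, iF, iT, n, hn, hq, ⟨e⟩⟩ := hL
  have hs : IsSimpleGroup (Matrix.ProjectiveSpecialLinearGroup (Fin n) F) := e.symm.isSimpleGroup
  rcases hn.lt_or_eq with h | h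
  · exact (row_psl_three h).congr e.symm
  · subst h
    exact (row_two (hq rfl)).congr e.symm

end Cfsg.Agent.H974.Gs
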